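import Cfsg.Agent.Lib.Zsigmondy.Basic

/-!
Large primitive parts of `a ^ n - 1` (after Feit and Hering).
-/

open Polynomial

namespace CfsgLib.Zsigmondy

theorem cycloVal_prime_pow_mul {a r m : ℕ} (hr : r.Prime) :
    ∀ k, cycloVal (r ^ (k + 1) * m) a = cycloVal (r * m) (a ^ r ^ k) := by
  intro k
  induction k generalizing a with
  | zero => simp
  | succ k ih =>
    have hd : r ∣ r ^ (k + 1) * m := dvd_mul_of_dvd_left (dvd_pow_self r k.succ_ne_zero) m
    have e : r ^ (k + 1 + 1) * m = r ^ (k + 1) * m * r := by ring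
    rw [e, cycloVal_prime_mul_of_dvd hr hd, ih, ← pow_mul]
    congr 2
    rw [pow_succ]; ring

/-- A lower bound for the cyclotomic value at a number with prime power part `r ^ (k + 1)`. -/
theorem two_pow_le_cycloVal {a r k m : ℕ} (ha : 1 < a) (hr : r.Prime) (hm : ¬ r ∣ m) :
    2 ^ ((r ^ k * (r - 1) - 1) * m.totient) ≤ cycloVal (r ^ (k + 1) * m) a := by
  have hr2 := hr.two_le
  rw [cycloVal_prime_pow_mul hr k]
  set c := a ^ r ^ k with hc
  have hc1 : 1 < c := one_lt_pow₀ ha (pow_ne_zero _ hr.ne_zero)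
  have hmul := cycloVal_prime_mul_mul (a := c) hr hm
  rw [mul_comm m r] at hmul
  set g := m.totient with hg
  have h1 := sub_one_pow_le_cycloVal (a := c ^ r) (one_lt_pow₀ hc1 hr.ne_zero) m
  have h2 := cycloVal_le_add_one_pow hc1 m
  rw [← hmul] at h1
  have h3 : c ^ (r - 1) * (c + 1) ≤ 2 * (c ^ r - 1) := by
    have e : c ^ r = c ^ (r - 1) * c := by rw [← pow_succ]; congr 1; omega
    have h4 : 2 ≤ c ^ (r - 1) := le_trans hc1 (Nat.le_self_pow (by omega) c)
    have h5 : c ^ (r - 1) * 2 ≤ c ^ (r - 1) * c := Nat.mul_le_mul_left _ hc1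
    rw [e, mul_add, mul_one]
    generalize c ^ (r - 1) * c = x at h5
    omega
  have h4 : (c ^ (r - 1)) ^ g * (c + 1) ^ g ≤ 2 ^ g * (cycloVal (r * m) c * (c + 1) ^ g) := by
    calc (c ^ (r - 1)) ^ g * (c + 1) ^ g = (c ^ (r - 1) * (c + 1)) ^ g := (mul_pow _ _ _).symm
      _ ≤ (2 * (c ^ r - 1)) ^ g := Nat.pow_le_pow_left h3 g
      _ = 2 ^ g * (c ^ r - 1) ^ g := mul_pow _ _ _
      _ ≤ 2 ^ g * (cycloVal (r * m) c * (c + 1) ^ g) :=
        Nat.mul_le_mul_left _ (h1.trans (Nat.mul_le_mul_left _ h2))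
  rw [← mul_assoc] at h4
  have h5 := Nat.le_of_mul_le_mul_right h4 (pow_pos (by omega) g)
  have h6 : (2 ^ (r ^ k * (r - 1))) ^ g ≤ (c ^ (r - 1)) ^ g := by
    apply Nat.pow_le_pow_left
    rw [hc, ← pow_mul]
    exact Nat.pow_le_pow_left ha _
  have hf : 1 ≤ r ^ k * (r - 1) := Nat.mul_pos (pow_pos hr.pos k) (by omega)
  have h7 := h6.trans h5
  rw [← pow_mul, show r ^ k * (r - 1) * g = g + (r ^ k * (r - 1) - 1) * g by
    nth_rw 1 [show r ^ k * (r - 1) = 1 + (r ^ k * (r - 1) - 1) by omega]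
    rw [add_mul, one_mul], pow_add] at h7
  exact Nat.le_of_mul_le_mul_left h7 (by positivity)

theorem le_two_mul_totient_sq : ∀ n : ℕ, n ≤ 2 * n.totient ^ 2 ∧ (Odd n → n ≤ n.totient ^ 2) := by
  intro n
  induction n using Nat.recOnPosPrimePosCoprime with
  | zero => simp
  | one => simp
  | prime_pow p i hp hi =>
    have h2 := hp.two_le
    obtain ⟨j, rfl⟩ : ∃ j, i = j + 1 := ⟨i - 1, by omega⟩
    rw [Nat.totient_prime_pow hp (by omega)]
    simp only [Nat.add_sub_cancel]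
    have hpos : 0 < p ^ j := pow_pos hp.pos j
    constructor
    · have h3 : p ^ j * p ≤ 2 * (p ^ j * (p - 1)) := by
        rw [mul_left_comm]; exact Nat.mul_le_mul_left _ (by omega)
      have h4 : p ^ j * (p - 1) ≤ (p ^ j * (p - 1)) ^ 2 := Nat.le_self_pow (by omega) _
      rw [pow_succ]; omega
    · intro hodd
      have hp3 : 3 ≤ p := by
        rcases h2.eq_or_lt with rfl | h
        · exact absurd hodd (by simp [Nat.even_pow])
        · omega
      have h5 : p ≤ (p - 1) ^ 2 := by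
        obtain ⟨q, rfl⟩ : ∃ q, p = q + 3 := ⟨p - 3, by omega⟩
        simp only [show q + 3 - 1 = q + 2 by omega]
        ring_nf; omega
      rw [pow_succ, mul_pow]
      exact Nat.mul_le_mul (Nat.le_self_pow (by omega) _) h5
  | coprime a b ha hb hab iha ihb =>
    rw [Nat.totient_mul hab, mul_pow]
    constructor
    · rcases Nat.even_or_odd a with hev | hod
      · have hbodd : Odd b := by
          rw [← Nat.not_even_iff_odd]
          intro hbe
          exact Nat.not_coprime_of_dvd_of_dvd one_lt_two hev.two_dvd hbe.two_dvd hab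
        have := Nat.mul_le_mul iha.1 (ihb.2 hbodd)
        rwa [mul_assoc] at this
      · have := Nat.mul_le_mul (iha.2 hod) ihb.1
        rwa [mul_left_comm] at this
    · intro h
      obtain ⟨h1, h2⟩ := Nat.odd_mul.mp h
      exact Nat.mul_le_mul (iha.2 h1) (ihb.2 h2)

/-- The exponents for which small primitive parts can occur. -/
def smallExps : List ℕ :=
  [3, 4, 5, 6, 7, 8, 9, 10, 11, 12, 14, 15, 16, 18, 20, 21, 22, 24, 28, 30, 36, 42, 48]

theorem mul_sq_lt_two_pow : ∀ x, 15 ≤ x → 72 * x ^ 2 < 2 ^ x := by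
  intro x hx
  induction x, hx using Nat.le_induction with
  | base => norm_num
  | succ x hx ih =>
    rw [pow_succ 2 x]
    nlinarith

theorem two_table : ∀ k < 5, 2 < 2 ^ (k + 1) → 2 ^ (k + 1) ∈ smallExps ∨
    2 * (2 * 2 ^ (k + 1) + 1) < 2 ^ (2 ^ k - 1) := by
  decide

theorem three_table : ∀ k < 2, ∀ j < 5, 3 ^ (k + 1) * 2 ^ j ∈ smallExps ∨
    3 * (2 * (3 ^ (k + 1) * 2 ^ j) + 1) < 2 ^ ((3 ^ k * 2 - 1) * (2 ^ j).totient) := by
  decide +kernel

set_option synthInstance.maxSize 1000 in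
theorem big_table : ∀ r ∈ [5, 7, 11, 13], ∀ k < 2, ∀ m < 33, 0 < m →
    (r ^ k * (r - 1) - 1) * m.totient ≤ 14 → (∀ l ≤ m, r ≤ l → l ∣ m → ¬ l.Prime) →
      r ^ (k + 1) * m ∈ smallExps ∨
      r * (2 * (r ^ (k + 1) * m) + 1) < 2 ^ ((r ^ k * (r - 1) - 1) * m.totient) := by
  decide +kernel

/-- The bound on the exponents. -/
theorem lt_two_pow_or_mem {r k m : ℕ} (hr : r.Prime) (hm0 : 0 < m) (hm : ¬ r ∣ m)
    (hmax : ∀ l, l.Prime → l ∣ m → l < r) (hn : 2 < r ^ (k + 1) * m) :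
    r ^ (k + 1) * m ∈ smallExps ∨
      r * (2 * (r ^ (k + 1) * m) + 1) < 2 ^ ((r ^ k * (r - 1) - 1) * m.totient) := by
  have hr2 := hr.two_le
  set g := m.totient with hgdef
  have hg : 0 < g := Nat.totient_pos.mpr hm0
  set f := r ^ k * (r - 1) with hfdef
  have hk1 : 1 ≤ r ^ k := Nat.one_le_pow _ _ hr.pos
  have hfr : r ≤ f + 1 := by
    have : 1 * (r - 1) ≤ f := Nat.mul_le_mul_right _ hk1
    omega
  have hN : r ^ (k + 1) ≤ 2 * f := by
    rw [hfdef, pow_succ, mul_left_comm]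
    exact Nat.mul_le_mul_left _ (by omega)
  rcases le_or_gt ((f - 1) * g) 14 with hx | hx
  swap
  · right
    have hm2 := (le_two_mul_totient_sq m).1
    rw [← hgdef] at hm2
    have hb := mul_sq_lt_two_pow _ hx
    obtain ⟨e, he⟩ : ∃ e, f = e + 2 := by
      rcases (show f = 0 ∨ f = 1 ∨ 2 ≤ f by omega) with h | h | h
      · rw [h] at hx; simp at hx
      · rw [h] at hx; simp at hx
      · exact ⟨f - 2, by omega⟩
    have h1 : r * (2 * (r ^ (k + 1) * m) + 1) ≤ (f + 1) * (2 * (2 * f * (2 * g ^ 2)) + 1) := by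
      apply Nat.mul_le_mul hfr
      have := Nat.mul_le_mul hN hm2
      omega
    refine lt_of_le_of_lt (h1.trans ?_) hb
    rw [he, show e + 2 - 1 = e + 1 by omega]
    have hg2 : 1 ≤ g ^ 2 := Nat.one_le_pow _ _ hg
    rw [mul_pow]
    generalize g ^ 2 = G at hg2
    calc (e + 2 + 1) * (2 * (2 * (e + 2) * (2 * G)) + 1)
        ≤ (3 * (e + 1)) * (18 * (e + 1) * G) := by
          apply Nat.mul_le_mul (by omega)
          have : 0 ≤ e * G := Nat.zero_le _
          ring_nf; omega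
      _ ≤ 72 * ((e + 1) ^ 2 * G) := by ring_nf; omega
  have hm2g := (le_two_mul_totient_sq m).1
  rw [← hgdef] at hm2g
  have hf14 : f ≤ 15 := by
    have h := Nat.le_mul_of_pos_right (f - 1) hg
    omega
  have hkf : r ^ k ≤ 15 := le_trans (Nat.le_mul_of_pos_right _ (by omega)) hf14
  rcases (show r = 2 ∨ r = 3 ∨ r = 4 ∨ 5 ≤ r by omega) with rfl | rfl | rfl | h5
  · obtain rfl : m = 1 := by
      by_contra hne
      obtain ⟨l, hl, hlm⟩ := Nat.exists_prime_and_dvd hne
      have := hmax l hl hlm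
      have := hl.two_le
      omega
    have hk : k < 5 := by
      by_contra hk
      have h := Nat.pow_le_pow_right (show 0 < 2 by norm_num) (show 4 ≤ k by omega)
      omega
    rcases two_table k hk (by omega) with h | h
    · left; simpa using h
    · right; simpa [hgdef, hfdef] using h
  · obtain ⟨j, rfl⟩ : ∃ j, m = 2 ^ j := by
      refine ⟨_, Nat.eq_prime_pow_of_unique_prime_dvd (by omega) fun {l} hl hlm => ?_⟩
      have := hmax l hl hlm
      have := hl.two_le
      omega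
    have hk : k < 2 := by
      by_contra hk
      have h := Nat.pow_le_pow_right (show 0 < 3 by norm_num) (show 2 ≤ k by omega)
      rw [hfdef] at hf14
      omega
    have hj : j < 5 ∨ 5 ≤ j := lt_or_ge j 5
    rcases hj with hj | hj
    · rcases three_table k hk j hj with h | h
      · exact Or.inl h
      · exact Or.inr h
    · exfalso
      rw [hgdef, Nat.totient_prime_pow Nat.prime_two (by omega)] at hx
      have h1 : 2 ^ 4 ≤ 2 ^ (j - 1) := Nat.pow_le_pow_right (by norm_num) (by omega)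
      have h2 : 2 ≤ f := by rw [hfdef]; omega
      have h3 : 1 * (2 ^ 4 * 1) ≤ (f - 1) * (2 ^ (j - 1) * (2 - 1)) :=
        Nat.mul_le_mul (by omega) (Nat.mul_le_mul h1 le_rfl)
      omega
  · norm_num at hr
  · have hg4 : g ≤ 4 := by
      have : 4 ≤ f := by omega
      have h := Nat.mul_le_mul_right g (show 3 ≤ f - 1 by omega)
      omega
    have hm32 : m < 33 := by
      have : g ^ 2 ≤ 4 ^ 2 := Nat.pow_le_pow_left hg4 2
      omega
    have hk : k < 2 := by
      by_contra hk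
      have h := Nat.pow_le_pow_left h5 2
      have h' := Nat.pow_le_pow_right hr.pos (show 2 ≤ k by omega)
      omega
    have hr16 : r ≤ 16 := by omega
    have hrmem : r ∈ [5, 7, 11, 13] := by
      simp only [List.mem_cons, List.not_mem_nil, or_false]
      interval_cases r <;> first | omega | (norm_num at hr)
    exact big_table r hrmem k hk m hm32 hm0 hx fun l _ hrl hlm hl => by
      have := hmax l hl hlm
      omega

theorem mul_lt_cycloVal {a n : ℕ} (ha : 1 < a) (hn : 2 < n)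
    (hsmall : ¬ (n ∈ smallExps ∧ (a - 1) ^ n.totient ≤ n * (2 * n + 1))) :
    ∀ r, r.Prime → r ∣ n → (∀ l, l.Prime → l ∣ n → l ≤ r) →
      r * (2 * n + 1) < cycloVal n a := by
  intro r hr hrn hmax
  by_cases hmem : n ∈ smallExps
  · have h := not_le.mp fun hh => hsmall ⟨hmem, hh⟩
    have h1 := sub_one_pow_le_cycloVal ha n
    have h2 : r * (2 * n + 1) ≤ n * (2 * n + 1) :=
      Nat.mul_le_mul_right _ (Nat.le_of_dvd (by omega) hrn)
    omega
  obtain ⟨k, m, hm, rfl⟩ := Nat.exists_eq_pow_mul_and_not_dvd (by omega : n ≠ 0) r hr.ne_one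
  obtain ⟨j, rfl⟩ : ∃ j, k = j + 1 := ⟨k - 1, by
    rcases k with _ | k
    · rw [pow_zero, one_mul] at hrn; exact absurd hrn hm
    · rfl⟩
  have hm0 : 0 < m := Nat.pos_of_ne_zero fun h => by simp [h] at hn
  have hlt : ∀ l, l.Prime → l ∣ m → l < r := fun l hl hlm =>
    lt_of_le_of_ne (hmax l hl (dvd_mul_of_dvd_right hlm _)) fun h => hm (h ▸ hlm)
  rcases lt_two_pow_or_mem hr hm0 hm hlt hn with h | h
  · exact absurd h hmem
  · exact lt_of_lt_of_le h (two_pow_le_cycloVal ha hr hm)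

theorem dvd_sub_one_of_forall_prime {n : ℕ} : ∀ M : ℕ, 0 < M →
    (∀ p, p.Prime → p ∣ M → n ∣ p - 1) → n ∣ M - 1 := by
  intro M hM h
  induction M using Nat.recOnMul with
  | zero => omega
  | one => simp
  | prime p hp => exact h p hp dvd_rfl
  | mul a b iha ihb =>
    have ha : 0 < a := Nat.pos_of_mul_pos_right hM
    have hb : 0 < b := Nat.pos_of_mul_pos_left hM
    obtain ⟨s, hs⟩ := iha ha fun p hp hd => h p hp (hd.mul_right b)
    obtain ⟨t, ht⟩ := ihb hb fun p hp hd => h p hp (hd.mul_left a)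
    obtain ⟨a', rfl⟩ : ∃ a', a = a' + 1 := ⟨a - 1, by omega⟩
    obtain ⟨b', rfl⟩ : ∃ b', b = b' + 1 := ⟨b - 1, by omega⟩
    simp only [Nat.add_sub_cancel] at hs ht
    subst hs ht
    exact ⟨n * s * t + s + t, by ring_nf; omega⟩

/-- The primitive part is large, apart from finitely many pairs. -/
theorem exists_large_primitive_part {a n : ℕ} (ha : 1 < a) (hn : 2 < n)
    (hsmall : ¬ (n ∈ smallExps ∧ (a - 1) ^ n.totient ≤ n * (2 * n + 1))) :
    ∃ M, M ∣ a ^ n - 1 ∧ (∀ p, p.Prime → p ∣ M → IsPpd a n p) ∧ n ∣ M - 1 ∧ 3 * n + 1 ≤ M := by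
  have hbig := mul_lt_cycloVal ha hn hsmall
  -- a bound for every prime divisor of `n`
  have hpf : n.primeFactors.Nonempty := Nat.nonempty_primeFactors.mpr (by omega)
  set r := n.primeFactors.max' hpf
  have hmem := Finset.max'_mem _ hpf
  have hr : r.Prime := Nat.prime_of_mem_primeFactors hmem
  have hrn : r ∣ n := Nat.dvd_of_mem_primeFactors hmem
  have hmax : ∀ l, l.Prime → l ∣ n → l ≤ r := fun l hl hln =>
    Finset.le_max' _ l (Nat.mem_primeFactors.mpr ⟨hl, hln, by omega⟩)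
  have hv := hbig r hr hrn hmax
  have fin : ∀ M, M ∣ cycloVal n a → 2 * n + 1 < M → (∀ p, p.Prime → p ∣ M → ¬ p ∣ n) →
      ∃ M, M ∣ a ^ n - 1 ∧ (∀ p, p.Prime → p ∣ M → IsPpd a n p) ∧ n ∣ M - 1 ∧ 3 * n + 1 ≤ M := by
    intro M hM hlt hco
    have hppd : ∀ p, p.Prime → p ∣ M → IsPpd a n p := fun p hp hd =>
      isPpd_of_dvd_cycloVal ha (by omega) hp (hco p hp hd) (hd.trans hM)
    have hd1 := dvd_sub_one_of_forall_prime M (by omega) fun p hp hd =>
      (hppd p hp hd).dvd_sub_one ha (by omega)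
    refine ⟨M, hM.trans (cycloVal_dvd ha n), hppd, hd1, ?_⟩
    obtain ⟨s, hs⟩ := hd1
    have : 3 ≤ s := by
      by_contra h
      have := Nat.mul_le_mul_left n (show s ≤ 2 by omega)
      omega
    have := Nat.mul_le_mul_left n this
    omega
  have honly : ∀ p, p.Prime → p ∣ cycloVal n a → p ∣ n → p = r := fun p hp hd hpn =>
    le_antisymm (hmax p hp hpn) (prime_le_of_dvd_cycloVal ha (by omega) hp hpn hd hr hrn)
  by_cases hrd : r ∣ cycloVal n a
  · obtain ⟨M, hM⟩ := hrd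
    refine fin M ⟨r, by rw [hM, mul_comm]⟩ ?_ fun p hp hd hpn => ?_
    · rw [hM] at hv
      exact Nat.lt_of_mul_lt_mul_left hv
    · obtain rfl := honly p hp (hM ▸ hd.mul_left r) hpn
      exact not_sq_dvd_cycloVal ha hn hr hrn (by rw [hM, pow_two]; exact mul_dvd_mul_left r hd)
  · refine fin _ dvd_rfl ?_ fun p hp hd hpn => hrd (honly p hp hd hpn ▸ hd)
    have := hr.two_le
    nlinarith

/-- All pairs left by the bound, with a large primitive number and prime when they exist. -/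
def smallRows : List (ℕ × ℕ × ℕ × ℕ) :=
  [(2, 3, 7, 7), (3, 3, 13, 13), (4, 3, 7, 7), (5, 3, 31, 31), (2, 4, 5, 0), (3, 4, 5, 0),
   (4, 4, 17, 17), (5, 4, 13, 13), (6, 4, 37, 37), (7, 4, 25, 5), (2, 5, 31, 31),
   (3, 5, 121, 11), (2, 6, 1, 0), (3, 6, 7, 0), (4, 6, 13, 13), (5, 6, 7, 0), (6, 6, 31, 31),
   (7, 6, 43, 43), (8, 6, 19, 19), (9, 6, 73, 73), (2, 7, 127, 127), (3, 7, 1093, 1093),
   (2, 8, 17, 17), (3, 8, 41, 41), (4, 8, 257, 257), (2, 9, 73, 73), (3, 9, 757, 757),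
   (2, 10, 11, 0), (3, 10, 61, 61), (4, 10, 41, 41), (2, 11, 2047, 89), (2, 12, 13, 0),
   (3, 12, 73, 73), (4, 12, 241, 241), (5, 12, 601, 601), (2, 14, 43, 43), (3, 14, 547, 547),
   (2, 15, 151, 151), (3, 15, 4561, 4561), (2, 16, 257, 257), (3, 16, 3281, 193),
   (2, 18, 19, 0), (3, 18, 703, 37), (2, 20, 41, 41), (3, 20, 1181, 1181), (2, 21, 337, 337),
   (2, 22, 683, 683), (2, 24, 241, 241), (3, 24, 6481, 6481), (2, 28, 3277, 113),
   (2, 30, 331, 331), (3, 30, 8401, 271), (2, 36, 4033, 109), (2, 42, 5419, 5419),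
   (2, 48, 65281, 673)]

set_option synthInstance.maxSize 1000 in
theorem smallRows_cover : ∀ n ∈ smallExps, ∀ a < 10, 1 < a →
    (a - 1) ^ n.totient ≤ n * (2 * n + 1) → ∃ row ∈ smallRows, row.1 = a ∧ row.2.1 = n := by
  decide +kernel

theorem ten_le_bound : ∀ n ∈ smallExps, n * (2 * n + 1) < 9 ^ n.totient := by
  decide +kernel

/-- A pair outside the bound or one of the listed rows. -/
theorem exists_row {a n : ℕ} (ha : 1 < a) (hmem : n ∈ smallExps)
    (h : (a - 1) ^ n.totient ≤ n * (2 * n + 1)) :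
    ∃ row ∈ smallRows, row.1 = a ∧ row.2.1 = n := by
  by_cases h10 : a < 10
  · exact smallRows_cover n hmem a h10 ha h
  · exfalso
    have h1 := ten_le_bound n hmem
    have h2 : 9 ^ n.totient ≤ (a - 1) ^ n.totient := Nat.pow_le_pow_left (by omega) _
    omega

end CfsgLib.Zsigmondy
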